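import Mathlib
import Cfsg.Agent.Lib.Helper82.Alt2.Defs

/-!
# S2928 (helper82 project): local Klein four-group tools (helper24)
-/

set_option autoImplicit false

namespace Cfsg.Agent.Lib.Helper24.Alt2

open Equiv
open Cfsg.Agent.Lib.Helper82.Alt2

/-- a `DT` maps its support into itself -/
theorem dtApplyMem {n : ℕ} {s : Finset (Fin n)} {g : Perm (Fin n)} (hg : DT s g) {x : Fin n}
    (hx : x ∈ s) : g x ∈ s := by
  rw [← hg.2 (g x)]
  intro h
  have h2 := (hg.2 x).mpr hx
  exact h2 (g.injective h)

/-- a `DT` is an involution pointwise -/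
theorem dtInvol {n : ℕ} {s : Finset (Fin n)} {g : Perm (Fin n)} (hg : DT s g) (x : Fin n) :
    g (g x) = x := by
  have h := congrArg (fun f : Perm (Fin n) => f x) hg.1
  simpa using h

/-- a `DT` fixes the points outside its support -/
theorem dtFix {n : ℕ} {s : Finset (Fin n)} {g : Perm (Fin n)} (hg : DT s g) {x : Fin n}
    (hx : x ∉ s) : g x = x := by
  by_contra h
  exact hx ((hg.2 x).mp h)

/-- the double transposition on a `4`-set with a prescribed pair -/
theorem dtExists {n : ℕ} {s : Finset (Fin n)} (hs : s.card = 4) {x y : Fin n} (hx : x ∈ s)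
    (hy : y ∈ s) (hxy : x ≠ y) : ∃ g, DT s g ∧ g x = y := by
  classical
  have hy' : y ∈ s.erase x := Finset.mem_erase.mpr ⟨fun h => hxy h.symm, hy⟩
  have hc : ((s.erase x).erase y).card = 2 := by
    rw [Finset.card_erase_of_mem hy', Finset.card_erase_of_mem hx, hs]
  obtain ⟨u, v, huv, hr⟩ := Finset.card_eq_two.mp hc
  have hu : u ∈ (s.erase x).erase y := by rw [hr]; simp
  have hv : v ∈ (s.erase x).erase y := by rw [hr]; simp
  simp only [Finset.mem_erase] at hu hv
  obtain ⟨huy, hux, hus⟩ := hu
  obtain ⟨hvy, hvx, hvs⟩ := hv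
  have hmem : ∀ z, z ∈ s ↔ z = x ∨ z = y ∨ z = u ∨ z = v := by
    intro z
    constructor
    · intro hz
      by_cases hzx : z = x
      · exact Or.inl hzx
      by_cases hzy : z = y
      · exact Or.inr (Or.inl hzy)
      have : z ∈ (s.erase x).erase y := by
        simp only [Finset.mem_erase]
        exact ⟨hzy, hzx, hz⟩
      rw [hr] at this
      simp only [Finset.mem_insert, Finset.mem_singleton] at this
      exact Or.inr (Or.inr this)
    · rintro (rfl | rfl | rfl | rfl) <;> assumption
  refine ⟨swap x y * swap u v, ⟨?_, ?_⟩, ?_⟩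
  · have hd : (swap x y).Disjoint (swap u v) := by
      intro z
      by_cases hzx : z = x
      · right; rw [hzx]; exact swap_apply_of_ne_of_ne (Ne.symm hux) (Ne.symm hvx)
      by_cases hzy : z = y
      · right; rw [hzy]; exact swap_apply_of_ne_of_ne (Ne.symm huy) (Ne.symm hvy)
      left; exact swap_apply_of_ne_of_ne hzx hzy
    have hcomm := hd.commute.eq
    calc swap x y * swap u v * (swap x y * swap u v)
        = swap x y * (swap u v * swap x y) * swap u v := by group
      _ = swap x y * (swap x y * swap u v) * swap u v := by rw [hcomm]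
      _ = (swap x y * swap x y) * (swap u v * swap u v) := by group
      _ = 1 := by rw [swap_mul_self, swap_mul_self, mul_one]
  · intro z
    rw [hmem, Perm.mul_apply]
    constructor
    · intro hne
      by_contra hcon
      push Not at hcon
      obtain ⟨h1, h2, h3, h4⟩ := hcon
      apply hne
      rw [swap_apply_of_ne_of_ne h3 h4, swap_apply_of_ne_of_ne h1 h2]
    · rintro (rfl | rfl | rfl | rfl)
      · rw [swap_apply_of_ne_of_ne (Ne.symm hux) (Ne.symm hvx), swap_apply_left]
        exact fun h => hxy h.symm
      · rw [swap_apply_of_ne_of_ne (Ne.symm huy) (Ne.symm hvy), swap_apply_right]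
        exact hxy
      · rw [swap_apply_left, swap_apply_of_ne_of_ne hvx hvy]
        exact fun h => huv h.symm
      · rw [swap_apply_right, swap_apply_of_ne_of_ne hux huy]
        exact huv
  · rw [Perm.mul_apply, swap_apply_of_ne_of_ne (Ne.symm hux) (Ne.symm hvx), swap_apply_left]

/-- there is a `DT` on every `4`-set -/
theorem dtExists' {n : ℕ} {s : Finset (Fin n)} (hs : s.card = 4) : ∃ g, DT s g := by
  have h1 : 1 < s.card := by omega
  obtain ⟨x, hx, y, hy, hxy⟩ := Finset.one_lt_card.mp h1
  obtain ⟨g, hg, -⟩ := dtExists hs hx hy hxy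
  exact ⟨g, hg⟩

/-- two `DT`s on the same `4`-set commute -/
theorem dtComm {n : ℕ} {s : Finset (Fin n)} (hs : s.card = 4) {g g' : Perm (Fin n)}
    (hg : DT s g) (hg' : DT s g') : g * g' = g' * g := by
  classical
  ext x
  rw [Perm.mul_apply, Perm.mul_apply]
  congr 1
  by_cases hx : x ∈ s
  · have hy := dtApplyMem hg hx
    have hz := dtApplyMem hg' hx
    have hyx : g x ≠ x := (hg.2 x).mpr hx
    have hzx : g' x ≠ x := (hg'.2 x).mpr hx
    by_cases hyz : g x = g' x
    · rw [← hyz, dtInvol hg, hyz, dtInvol hg']
    · -- the fourth point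
      have hcard : (((s.erase x).erase (g x)).erase (g' x)).card = 1 := by
        rw [Finset.card_erase_of_mem, Finset.card_erase_of_mem, Finset.card_erase_of_mem hx, hs]
        · exact Finset.mem_erase.mpr ⟨hyx, hy⟩
        · exact Finset.mem_erase.mpr ⟨fun h => hyz h.symm, Finset.mem_erase.mpr ⟨hzx, hz⟩⟩
      have h1 : g (g' x) ∈ ((s.erase x).erase (g x)).erase (g' x) := by
        simp only [Finset.mem_erase]
        refine ⟨(hg.2 _).mpr hz, ?_, ?_, dtApplyMem hg hz⟩
        · intro h
          exact hzx (g.injective h)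
        · intro h
          have h2 := congrArg g h
          rw [dtInvol hg] at h2
          exact hyz h2.symm
      have h2 : g' (g x) ∈ ((s.erase x).erase (g x)).erase (g' x) := by
        simp only [Finset.mem_erase]
        refine ⟨?_, (hg'.2 _).mpr hy, ?_, dtApplyMem hg' hy⟩
        · intro h
          exact hyx (g'.injective h)
        · intro h
          have h2 := congrArg g' h
          rw [dtInvol hg'] at h2
          exact hyz h2
      exact Finset.card_le_one.mp hcard.le _ h1 _ h2
  · rw [dtFix hg hx, dtFix hg' hx, dtFix hg hx]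

/-- two `DT`s on disjoint sets commute -/
theorem dtDisjointComm {n : ℕ} {s t : Finset (Fin n)} {g g' : Perm (Fin n)}
    (hg : DT s g) (hg' : DT t g') (hst : Disjoint s t) : g * g' = g' * g := by
  have hd : g.Disjoint g' := by
    intro x
    by_cases hx : x ∈ s
    · right
      exact dtFix hg' (Finset.disjoint_left.mp hst hx)
    · left
      exact dtFix hg hx
  exact hd.commute.eq

end Cfsg.Agent.Lib.Helper24.Alt2
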