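import Mathlib
import Cfsg.Agent.Lib.Helper82.Alt2.Defs
import Cfsg.Agent.Lib.Helper24.Alt2.Tools
import Cfsg.Agent.Lib.Helper38.Alt3.LemQ
import Cfsg.Agent.Lib.Helper38.Alt3.LemP
import Cfsg.Agent.Lib.Helper24.Alt3.LemJ
import Cfsg.Agent.Lib.Helper85.Alt3.LemAIso
import Cfsg.Agent.Lib.Helper85.Alt3.LemO
import Cfsg.Agent.Lib.Helper61.Alt3.LemASimple
import Cfsg.Agent.Lib.Helper61.Alt3.LemASolv

/-!
# S2928 (helper82 project): package [ALT3] (helper24)

With a `3`-cycle in `H`, `L = F*(H)` is the alternating group on a set `O` containing every member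
of `Fam H`.
-/

set_option autoImplicit false

namespace Cfsg.Agent.Lib.Helper24.Alt2

open Equiv
open Cfsg.Agent.Lib.Helper82.Alt2
open Cfsg.Agent.Lib.Helper38.Alt3

/-- `L` is the alternating group on the orbit of a point moved by a `3`-cycle of `H`
(the `key` step of S2929). -/
theorem alt3Key (n : ℕ) (H L : Subgroup (Perm (Fin n))) (qs : QS H L)
    (T : Set (Perm (Fin n))) (hTmem : ∀ t, t ∈ T ↔ t ∈ H ∧ t.IsThreeCycle)
    (c : Perm (Fin n)) (hc : c ∈ T) (x : Fin n) (hx : c x ≠ x) :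
    L = altOn n (orb n T x) ∧ 5 ≤ Nat.card (orb n T x) := by
  classical
  have hQ : LemQ.{0} := lemQ
  have hP : LemP := lemP
  have hA1 : LemAIso := Cfsg.Agent.Lib.Helper85.Alt3.lemAIso
  have hO : LemO := Cfsg.Agent.Lib.Helper85.Alt3.lemO Cfsg.Agent.Lib.Helper24.Alt3.lemJ
  have hA2 : LemASimple := Cfsg.Agent.Lib.Helper61.Alt3.lemASimple hA1
  have hA3 : LemASolv := Cfsg.Agent.Lib.Helper61.Alt3.lemASolv hA1
  have hT3 : ∀ t ∈ T, t.IsThreeCycle := fun t ht => ((hTmem t).mp ht).2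
  have hNH : Subgroup.closure T ≤ H :=
    (Subgroup.closure_le H).mpr (fun t ht => ((hTmem t).mp ht).1)
  have hNnorm : ∀ h ∈ H, ∀ g ∈ Subgroup.closure T, h * g * h⁻¹ ∈ Subgroup.closure T := by
    intro h hh g hg
    have hle : (Subgroup.closure T).map (MulAut.conj h).toMonoidHom ≤ Subgroup.closure T := by
      rw [MonoidHom.map_closure, Subgroup.closure_le]
      rintro _ ⟨t, ht, rfl⟩
      apply Subgroup.subset_closure
      have ht' := (hTmem t).mp ht
      rw [hTmem]
      refine ⟨H.mul_mem (H.mul_mem hh ht'.1) (H.inv_mem hh), ?_⟩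
      show (h * t * h⁻¹).IsThreeCycle
      unfold Equiv.Perm.IsThreeCycle
      rw [Equiv.Perm.cycleType_conj]
      exact ht'.2
    exact hle ⟨g, hg, rfl⟩
  have hc3 := hT3 c hc
  have hcO : c ∈ altOn n (orb n T x) := threeCycle_mem_altOn hc hc3 hx
  have hle : altOn n (orb n T x) ≤ Subgroup.closure T := hO n T hT3 c x hc hx
  have hLN : L ≤ Subgroup.closure T := by
    rcases hQ H L qs (Subgroup.closure T) hNH
      (fun l hl m hm => hNnorm l (qs.le hl) m hm) with h | ⟨h1, h2⟩
    · exact h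
    · exfalso
      have hcN : c ∈ Subgroup.closure T := Subgroup.subset_closure hc
      exact hx (hP n L c qs.perf hc3 (fun l hl => h2 c hcN l hl) c (h1 hcN) x hx)
  have hnormO : ∀ l ∈ L, ∀ a ∈ altOn n (orb n T x), l * a * l⁻¹ ∈ altOn n (orb n T x) :=
    fun l hl a ha => altOn_conj (orb_invariant (hLN hl)) ha
  rcases hQ H L qs (altOn n (orb n T x)) (hle.trans hNH) hnormO with h | ⟨h1, h2⟩
  · by_cases h5 : 5 ≤ Nat.card (orb n T x)
    · refine ⟨?_, h5⟩
      rcases hA2 n _ h5 L h (fun a ha m hm => qs.norm a (hNH (hle ha)) m hm) with hb | he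
      · exact absurd hb qs.ne
      · exact he
    · exfalso
      exact qs.ne (hA3 n _ (by omega) L h qs.perf)
  · exfalso
    exact hx (hP n L c qs.perf hc3 (fun l hl => h2 c hcO l hl) c (h1 hcO) x hx)

/-- Package [ALT3]. -/
theorem pkgAlt3 : PkgAlt3 := by
  intro n H L qs c hcH hc3
  classical
  obtain ⟨T, hT⟩ : ∃ T : Set (Perm (Fin n)), T = {t | t ∈ H ∧ t.IsThreeCycle} := ⟨_, rfl⟩
  have hTmem : ∀ t, t ∈ T ↔ t ∈ H ∧ t.IsThreeCycle := fun t => by rw [hT]; rfl
  have hcT : c ∈ T := (hTmem c).mpr ⟨hcH, hc3⟩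
  -- a point moved by `c`
  have hc1 : c ≠ 1 := by
    intro h
    have h3 := hc3.card_support
    rw [h] at h3
    simp at h3
  obtain ⟨x, hx⟩ : ∃ x, c x ≠ x := by
    by_contra hcon
    push Not at hcon
    exact hc1 (Equiv.ext hcon)
  obtain ⟨hLO, h5⟩ := alt3Key n H L qs T hTmem c hcT x hx
  obtain ⟨O, hO⟩ : ∃ O : Set (Fin n), O = orb n T x := ⟨_, rfl⟩
  rw [← hO] at hLO h5
  refine ⟨O, hLO, ?_⟩
  -- (i) every element of `H` maps `O` into `O`
  have hHO : ∀ h ∈ H, ∀ a ∈ O, h a ∈ O := by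
    intro h hh a ha
    -- two further points of `O`
    have hfin : (O.toFinset).card = Nat.card O := by
      rw [Set.toFinset_card, Nat.card_eq_fintype_card]
    have h3 : 2 < ((O.toFinset).erase a).card := by
      rw [Finset.card_erase_of_mem (by simpa using ha), hfin]
      omega
    obtain ⟨b, c', hb, hc', hbc⟩ : ∃ b c', b ∈ (O.toFinset).erase a ∧ c' ∈ (O.toFinset).erase a ∧
        b ≠ c' := by
      have h1 : 1 < ((O.toFinset).erase a).card := by omega
      obtain ⟨b, hb, c', hc', hbc⟩ := Finset.one_lt_card.mp h1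
      exact ⟨b, c', hb, hc', hbc⟩
    simp only [Finset.mem_erase, Set.mem_toFinset] at hb hc'
    obtain ⟨hba, hbO⟩ := hb
    obtain ⟨hca, hcO⟩ := hc'
    have ht : swap a b * swap a c' ∈ altOn n O := by
      refine ⟨?_, fun y hy => ?_⟩
      · rw [map_mul, Perm.sign_swap (Ne.symm hba), Perm.sign_swap (Ne.symm hca)]
        rfl
      · have hya : y ≠ a := fun h => hy (h ▸ ha)
        have hyb : y ≠ b := fun h => hy (h ▸ hbO)
        have hyc : y ≠ c' := fun h => hy (h ▸ hcO)
        rw [Perm.mul_apply, swap_apply_of_ne_of_ne hya hyc, swap_apply_of_ne_of_ne hya hyb]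
    have hta : (swap a b * swap a c') a = c' := by
      rw [Perm.mul_apply, swap_apply_left, swap_apply_of_ne_of_ne hca (Ne.symm hbc)]
    have htL : swap a b * swap a c' ∈ L := by rw [hLO]; exact ht
    have hconj : h * (swap a b * swap a c') * h⁻¹ ∈ altOn n O := by
      rw [← hLO]
      exact qs.norm h hh _ htL
    by_contra hha
    have hfix := hconj.2 (h a) hha
    have h4 : h⁻¹ (h a) = a := by simp
    rw [Perm.mul_apply, Perm.mul_apply, h4, hta] at hfix
    exact hca (h.injective hfix)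
  -- elements of `L` map `O` into `O`
  intro s hs
  have hs4 : s.card = 4 := hs.1
  -- (iii) `s` meets `O`
  have hmeet : ∃ x₀ ∈ s, x₀ ∈ O := by
    by_contra hcon
    push Not at hcon
    obtain ⟨g, hg⟩ := dtExists' hs4
    have hgH : g ∈ H := hs.2 g hg
    have hgL : g ∈ L := by
      refine qs.cent g hgH (fun l hl => ?_)
      have hl' : l ∈ altOn n O := by rw [← hLO]; exact hl
      have hd : g.Disjoint l := by
        intro z
        by_cases hz : z ∈ s
        · right
          exact hl'.2 z (hcon z hz)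
        · left
          exact dtFix hg hz
      exact hd.commute.eq
    have hg' : g ∈ altOn n O := by rw [← hLO]; exact hgL
    obtain ⟨y, hy⟩ : ∃ y, y ∈ s := by
      apply Finset.card_pos.mp
      omega
    exact (hg.2 y).mpr hy (hg'.2 y (hcon y hy))
  obtain ⟨x₀, hx₀s, hx₀O⟩ := hmeet
  -- (ii)
  intro y hy
  by_cases hyx : y = x₀
  · rw [hyx]; exact hx₀O
  · obtain ⟨g, hg, hgx⟩ := dtExists hs4 hx₀s hy (fun h => hyx h.symm)
    have hgH : g ∈ H := hs.2 g hg
    rw [← hgx]
    exact hHO g hgH x₀ hx₀O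

end Cfsg.Agent.Lib.Helper24.Alt2
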