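import Mathlib
import Cfsg.Agent.Lib.Helper82.Alt2.Defs
import Cfsg.Agent.Lib.Helper24.Alt2.Tools
import Cfsg.Agent.Lib.Helper38.Alt3.LemQ

/-!
# S2928 (helper82 project): package [MOVE] (helper24)

`L` lies in the group generated by the Klein groups on the `L`-translates of a member `s` of
`Fam H`, and some translate of `s` meets `s` without being equal to it.
-/

set_option autoImplicit false

namespace Cfsg.Agent.Lib.Helper24.Alt2

open Equiv
open Cfsg.Agent.Lib.Helper82.Alt2
open Cfsg.Agent.Lib.Helper38.Alt3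

/-- the pointwise stabilizer of a finset -/
def fixS {n : ℕ} (s : Finset (Fin n)) : Subgroup (Perm (Fin n)) where
  carrier := {g | ∀ x ∈ s, g x = x}
  one_mem' := fun _ _ => rfl
  mul_mem' := by
    intro a b ha hb x hx
    rw [Perm.mul_apply, hb x hx, ha x hx]
  inv_mem' := by
    intro a ha x hx
    rw [Perm.inv_eq_iff_eq]; exact (ha x hx).symm

theorem mem_fixS {n : ℕ} {s : Finset (Fin n)} {g : Perm (Fin n)} :
    g ∈ fixS s ↔ ∀ x ∈ s, g x = x := Iff.rfl

/-- Package [MOVE]. -/
theorem pkgMove : PkgMove := by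
  intro n H L qs s hs
  classical
  have hQ : LemQ.{0} := lemQ
  have hs4 : s.card = 4 := hs.1
  obtain ⟨K, hK⟩ : ∃ K : Set (Perm (Fin n)), K = {g | ∃ l ∈ L, DT (img l s) g} := ⟨_, rfl⟩
  have hKmem : ∀ g, g ∈ K ↔ ∃ l ∈ L, DT (img l s) g := fun g => by rw [hK]; rfl
  rw [← hK]
  have hMH : Subgroup.closure K ≤ H := by
    rw [Subgroup.closure_le]
    intro g hg
    obtain ⟨l, hl, hg⟩ := (hKmem g).mp hg
    exact (Fam_img hs (qs.le hl)).2 g hg
  have hMnorm : ∀ l ∈ L, ∀ m ∈ Subgroup.closure K, l * m * l⁻¹ ∈ Subgroup.closure K := by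
    intro l hl m hm
    have hle : (Subgroup.closure K).map (MulAut.conj l).toMonoidHom ≤ Subgroup.closure K := by
      rw [MonoidHom.map_closure, Subgroup.closure_le]
      rintro _ ⟨g, hg, rfl⟩
      obtain ⟨l', hl', hg⟩ := (hKmem g).mp hg
      apply Subgroup.subset_closure
      rw [hKmem]
      refine ⟨l * l', L.mul_mem hl hl', ?_⟩
      rw [img_mul]
      exact DT_conj l hg
    exact hle ⟨m, hm, rfl⟩
  -- the `DT`s on `s` are in `M`
  have hDTM : ∀ g, DT s g → g ∈ Subgroup.closure K := by
    intro g hg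
    apply Subgroup.subset_closure
    rw [hKmem]
    exact ⟨1, L.one_mem, by rw [img_one]; exact hg⟩
  have hLM : L ≤ Subgroup.closure K := by
    rcases hQ H L qs (Subgroup.closure K) hMH hMnorm with h | ⟨h1, h2⟩
    · exact h
    · exfalso
      -- each `l ∈ L` maps `s` into `s`
      have hLs : ∀ l ∈ L, ∀ x ∈ s, l x ∈ s := by
        intro l hl x hx
        obtain ⟨g, hg⟩ := dtExists' hs4
        have hcomm := h2 g (hDTM g hg) l hl
        rw [← hg.2 (l x)]
        intro h
        have h3 : g (l x) = l (g x) := by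
          have := congrArg (fun f : Perm (Fin n) => f x) hcomm
          simpa using this
        rw [h3] at h
        exact (hg.2 x).mpr hx (l.injective h)
      obtain ⟨a, ha⟩ : ∃ a, a ∈ s := Finset.card_pos.mp (by omega)
      -- for `l ∈ L` some `v ∈ M` agrees with `l` on `s`
      have hv : ∀ l ∈ L, ∃ v ∈ Subgroup.closure K, ∀ y ∈ s, l y = v y := by
        intro l hl
        obtain ⟨v, hvM, hva⟩ : ∃ v ∈ Subgroup.closure K, v a = l a := by
          by_cases hla : l a = a
          · exact ⟨1, Subgroup.one_mem _, by simp [hla]⟩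
          · obtain ⟨g, hg, hga⟩ := dtExists hs4 ha (hLs l hl a ha) (fun h => hla h.symm)
            exact ⟨g, hDTM g hg, hga⟩
        refine ⟨v, hvM, fun y hy => ?_⟩
        by_cases hya : y = a
        · rw [hya, hva]
        · obtain ⟨g', hg', hg'a⟩ := dtExists hs4 ha hy (fun h => hya h.symm)
          have hg'M := hDTM g' hg'
          have c1 : g' * l = l * g' := h2 g' hg'M l hl
          have c2 : g' * v = v * g' := h2 g' hg'M v (h1 hvM)
          rw [← hg'a]
          have e1 : l (g' a) = g' (l a) := by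
            have := congrArg (fun f : Perm (Fin n) => f a) c1
            simpa using this.symm
          have e2 : v (g' a) = g' (v a) := by
            have := congrArg (fun f : Perm (Fin n) => f a) c2
            simpa using this.symm
          rw [e1, e2, hva]
      -- commutators fix `s` pointwise
      have hLS : L ≤ fixS s := by
        apply qs.perf
        intro a' ha' b' hb' x hx
        have hy : a'⁻¹ (b'⁻¹ x) ∈ s :=
          hLs a'⁻¹ (L.inv_mem ha') _ (hLs b'⁻¹ (L.inv_mem hb') x hx)
        obtain ⟨va, hvaM, hva⟩ := hv a' ha'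
        obtain ⟨vb, hvbM, hvb⟩ := hv b' hb'
        have hcomm : va * vb = vb * va := h2 va hvaM vb (h1 hvbM)
        have hswap : a' (b' (a'⁻¹ (b'⁻¹ x))) = b' (a' (a'⁻¹ (b'⁻¹ x))) := by
          have hb1 : b' (a'⁻¹ (b'⁻¹ x)) ∈ s := hLs b' hb' _ hy
          have ha1 : a' (a'⁻¹ (b'⁻¹ x)) ∈ s := hLs a' ha' _ hy
          rw [hva _ hb1, hvb _ hy, hvb _ ha1, hva _ hy]
          have := congrArg (fun f : Perm (Fin n) => f (a'⁻¹ (b'⁻¹ x))) hcomm
          simpa using this
        show (a' * b' * a'⁻¹ * b'⁻¹) x = x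
        rw [Perm.mul_apply, Perm.mul_apply, Perm.mul_apply, hswap]
        simp
      obtain ⟨g, hg⟩ := dtExists' hs4
      exact (hg.2 a).mpr ha (hLS (h1 (hDTM g hg)) a ha)
  refine ⟨hLM, ?_⟩
  by_contra hcon
  push Not at hcon
  -- any two translates are equal or disjoint
  have hKcomm : ∀ g ∈ K, ∀ g' ∈ K, g * g' = g' * g := by
    intro g hg g' hg'
    obtain ⟨l, hl, hg⟩ := (hKmem g).mp hg
    obtain ⟨l', hl', hg'⟩ := (hKmem g').mp hg'
    have hl'' : l⁻¹ * l' ∈ L := L.mul_mem (L.inv_mem hl) hl'
    by_cases heq : img (l⁻¹ * l') s = s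
    · have h1 : img l' s = img l s := by
        have : l' = l * (l⁻¹ * l') := by group
        rw [this, img_mul, heq]
      rw [h1] at hg'
      exact dtComm (by rw [card_img]; exact hs4) hg hg'
    · have hne := hcon _ hl'' heq
      have hdis : Disjoint (img l s) (img l' s) := by
        rw [Finset.disjoint_left]
        intro z hz hz'
        obtain ⟨x, hx, rfl⟩ := mem_img.mp hz
        obtain ⟨x', hx', hxx⟩ := mem_img.mp hz'
        have hmem : x ∈ img (l⁻¹ * l') s ∩ s := by
          refine Finset.mem_inter.mpr ⟨?_, hx⟩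
          rw [mem_img]
          refine ⟨x', hx', ?_⟩
          rw [Perm.mul_apply, hxx]
          simp
        rw [hne] at hmem
        exact absurd hmem (Finset.notMem_empty x)
      exact dtDisjointComm hg hg' hdis
  have hMcomm : ∀ a ∈ Subgroup.closure K, ∀ b ∈ Subgroup.closure K, a * b = b * a := by
    have h1 : Subgroup.closure K ≤ Subgroup.centralizer K := by
      rw [Subgroup.closure_le]
      intro g hg
      rw [SetLike.mem_coe, Subgroup.mem_centralizer_iff]
      intro g' hg'
      exact hKcomm g' hg' g hg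
    have h2 : Subgroup.closure K ≤ Subgroup.centralizer (Subgroup.closure K : Set (Perm (Fin n))) := by
      rw [Subgroup.closure_le]
      intro g hg
      rw [SetLike.mem_coe, Subgroup.mem_centralizer_iff]
      intro m hm
      have := h1 hm
      rw [Subgroup.mem_centralizer_iff] at this
      exact (this g hg).symm
    intro a ha b hb
    have := h2 hb
    rw [Subgroup.mem_centralizer_iff] at this
    exact this a ha
  have hLbot : L ≤ ⊥ := by
    apply qs.perf
    intro a ha b hb
    rw [Subgroup.mem_bot, hMcomm a (hLM ha) b (hLM hb)]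
    group
  exact qs.ne (le_bot_iff.mp hLbot)

end Cfsg.Agent.Lib.Helper24.Alt2
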